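import Cfsg.Agent.H557.CardCent
import Cfsg.Agent.H557.LrSgn

/-!
# The big cell of the centralizer of a torus element (helper203)

* `cent_cell` : `∏_{x > 0} |C_{X x}(t)| · |T| · ∏_{x > 0} |C_{X (-x)}(t)| ≤ |C(t)|`;
* `sgn_cell` : for a sign element `t`: `|T| · (∏_{x > 0, t even on x} |X x|)² ≤ |C(t)|`.
-/

set_option autoImplicit false
set_option linter.unusedSectionVars false

namespace Cfsg.Agent.H203.IF.Cell

open CoxeterSystem Cfsg.Agent.ChevalleyStructure.CoxeterGeom Cfsg.Agent.Tits.Roots Cfsg.Agent.Tits.Core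
  Cfsg.Agent.Tits.RootComb Cfsg.Agent.Tits.Exchange Cfsg.Agent.Nodes.Comb Cfsg.Agent.Nodes.Reps Cfsg.Agent.Nodes.BNOf
  Cfsg.Agent.Nodes.BNOf.RGD Cfsg.Agent.Nodes.Unique Cfsg.Agent.Nodes.NormalForm Cfsg.Agent.Nodes.StabComb
  Cfsg.Agent.Nodes.Bruhat Cfsg.Agent.Nodes.OppDec Cfsg.Agent.H557.CardCent Cfsg.Agent.H557.LrSgn

variable {I W Y : Type*} [Fintype I] [DecidableEq I] [Group W] [Group Y] {M : CoxeterMatrix I}
  {cs : CoxeterSystem M W} {A : I → I → ℤ} {h : IsCartan M A} {p : ℕ} {T : Subgroup Y} {n : I → Y}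
  {X : (I → ℤ) → Subgroup Y} (Rd : RGD cs h p T n X)

theorem cj_inf {g : Y} (H K : Subgroup Y) : cj g (H ⊓ K) = cj g H ⊓ cj g K :=
  Subgroup.map_inf_eq _ _ _ (MulAut.conj g).injective

theorem cj_centralizer (g t : Y) : cj g (Subgroup.centralizer {t}) = Subgroup.centralizer {g * t * g⁻¹} := by
  ext x
  rw [mem_cj, Subgroup.mem_centralizer_singleton_iff, Subgroup.mem_centralizer_singleton_iff]
  constructor
  · intro h1
    calc x * (g * t * g⁻¹) = g * (g⁻¹ * x * g * t) * g⁻¹ := by group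
      _ = g * t * g⁻¹ * x := by rw [h1]; group
  · intro h1
    calc g⁻¹ * x * g * t = g⁻¹ * (x * (g * t * g⁻¹)) * g := by group
      _ = t * (g⁻¹ * x * g) := by rw [h1]; group

theorem card_cj' {g : Y} (H : Subgroup Y) : Nat.card (cj g H) = Nat.card H :=
  Nat.card_congr (H.equivMapOfInjective _ (MulAut.conj g).injective).toEquiv.symm

include Rd

/-- the negative unipotent part of a centralizer -/
theorem card_neg [Finite W] {t : Y} (ht : t ∈ T) {s : Finset (I → ℤ)} (hs : (s : Set (I → ℤ)) = Pos cs h) :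
    Nat.card ↥(UN cs h X ⊓ Subgroup.centralizer {t}) = ∏ x ∈ s, Nat.card ↥(X (-x) ⊓ Subgroup.centralizer {t}) := by
  classical
  obtain ⟨k, hk⟩ := exists_rp cs Rd.nsys (w0 cs)
  have hkt : k * t * k⁻¹ ∈ T := (Subgroup.mem_normalizer_iff.1 hk.mem_normalizer t).1 ht
  have h1 := card_sup_cent Rd hkt (s := s) (by rw [hs]) (by rw [hs]; exact closed_pos)
  rw [hs] at h1
  have h2 : Nat.card ↥(UN cs h X ⊓ Subgroup.centralizer {t}) =
      Nat.card ↥(Sup X (Pos cs h) ⊓ Subgroup.centralizer {k * t * k⁻¹}) := by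
    rw [← card_cj' (g := k) (UN cs h X ⊓ Subgroup.centralizer {t}), cj_inf, cj_centralizer, cj_UN Rd hk]
  rw [h2, h1]
  have hmem : ∀ x, x ∈ s ↔ IsRoot cs h x ∧ 0 ≤ x := fun x => by
    rw [← Finset.mem_coe, hs]; rfl
  refine Finset.prod_bij' (fun x _ => -rep cs h (w0 cs) x) (fun x _ => -rep cs h (w0 cs) x) ?_ ?_ ?_ ?_ ?_
  · intro x hx
    have hx' := (hmem x).1 hx
    exact (hmem _).2 ⟨(hx'.1.act _).neg, neg_nonneg.2 (rep_w0_nonpos hx'.1 hx'.2)⟩
  · intro x hx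
    have hx' := (hmem x).1 hx
    exact (hmem _).2 ⟨(hx'.1.act _).neg, neg_nonneg.2 (rep_w0_nonpos hx'.1 hx'.2)⟩
  · intro x _
    rw [map_neg, neg_neg, ← rep_mul_apply]
    nth_rewrite 1 [← w0_inv cs]
    rw [inv_mul_cancel, map_one, Module.End.one_apply]
  · intro x _
    rw [map_neg, neg_neg, ← rep_mul_apply]
    nth_rewrite 1 [← w0_inv cs]
    rw [inv_mul_cancel, map_one, Module.End.one_apply]
  · intro x hx
    have hx' := (hmem x).1 hx
    rw [neg_neg]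
    have h3 : X (rep cs h (w0 cs) x) = cj k⁻¹ (X x) := by
      have h4 := Rd.conj_rp hk.inv hx'.1
      rw [w0_inv] at h4
      exact h4.symm
    have h5 : X (rep cs h (w0 cs) x) ⊓ Subgroup.centralizer {t} =
        cj k⁻¹ (X x ⊓ Subgroup.centralizer {k * t * k⁻¹}) := by
      rw [h3, cj_inf, cj_centralizer]
      congr 3
      group
    rw [h5, card_cj']

/-- **The big cell of the centralizer of a torus element.** -/
theorem cent_cell [Finite W] [Finite Y] (hT : ∀ a ∈ T, ∀ b ∈ T, a * b = b * a) {t : Y} (ht : t ∈ T)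
    {s : Finset (I → ℤ)} (hs : (s : Set (I → ℤ)) = Pos cs h) :
    (∏ x ∈ s, Nat.card ↥(X (-x) ⊓ Subgroup.centralizer {t})) * Nat.card T *
      (∏ x ∈ s, Nat.card ↥(X x ⊓ Subgroup.centralizer {t})) ≤ Nat.card ↥(Subgroup.centralizer {t}) := by
  classical
  set C := Subgroup.centralizer ({t} : Set Y) with hC
  have hTC : T ≤ C := by
    intro a ha
    rw [hC, Subgroup.mem_centralizer_singleton_iff]
    exact hT a ha t ht
  have h1 := card_sup_cent Rd ht (s := s) (by rw [hs]) (by rw [hs]; exact closed_pos)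
  rw [hs] at h1
  rw [← card_neg Rd ht hs, ← h1, ← Nat.card_prod, ← Nat.card_prod]
  let f : (↥(UN cs h X ⊓ C) × T) × ↥(Sup X (Pos cs h) ⊓ C) → C := fun x =>
    ⟨x.1.1 * x.1.2 * x.2, mul_mem (mul_mem (Subgroup.mem_inf.1 x.1.1.2).2 (hTC x.1.2.2)) (Subgroup.mem_inf.1 x.2.2).2⟩
  refine Nat.card_le_card_of_injective f ?_
  rintro ⟨⟨⟨v, hv⟩, a⟩, ⟨u, hu⟩⟩ ⟨⟨⟨v', hv'⟩, a'⟩, ⟨u', hu'⟩⟩ e
  have e1 : v * a * u = v' * a' * u' := congrArg Subtype.val e
  have e2 : v'⁻¹ * v = a' * u' * u⁻¹ * (a : Y)⁻¹ := by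
    have : v'⁻¹ * (v * a * u) * u⁻¹ * (a : Y)⁻¹ = v'⁻¹ * v := by group
    rw [← this, e1]
    group
  have hu1 := (Subgroup.mem_inf.1 hu).1
  have hu1' := (Subgroup.mem_inf.1 hu').1
  have e3 : v'⁻¹ * v = 1 := by
    refine eq_one_of_mem_UN_of_mem_B Rd (mul_mem (inv_mem (Subgroup.mem_inf.1 hv').1) (Subgroup.mem_inf.1 hv).1) ?_
    rw [e2]
    exact mul_mem (mul_mem (mul_mem (RGD.T_le_B a'.2) (RGD.U_le_B hu1')) (inv_mem (RGD.U_le_B hu1)))
      (inv_mem (RGD.T_le_B a.2))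
  have e4 : v = v' := (inv_mul_eq_one.1 e3).symm
  subst e4
  have e5 : (a : Y) * u = a' * u' := by
    have : v * (a * u) = v * (a' * u') := by rw [← mul_assoc, e1, mul_assoc]
    exact mul_left_cancel this
  have e6 : (a' : Y)⁻¹ * a = u' * u⁻¹ := by
    rw [inv_mul_eq_iff_eq_mul, ← mul_assoc, ← e5, mul_inv_cancel_right]
  have e7 : (a' : Y)⁻¹ * a ∈ Sup X (Pos cs h) ⊓ T :=
    Subgroup.mem_inf.2 ⟨by rw [e6]; exact mul_mem hu1' (inv_mem hu1), mul_mem (inv_mem a'.2) a.2⟩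
  rw [U_inf_T Rd, Subgroup.mem_bot] at e7
  have e8 : a = a' := Subtype.ext (inv_mul_eq_one.1 e7).symm
  subst e8
  have e9 : u = u' := mul_left_cancel e5
  subst e9
  rfl

/-- **The big cell of the centralizer of a sign element.** -/
theorem sgn_cell [Finite W] [Finite Y] (hp2 : Odd p) (hT : ∀ a ∈ T, ∀ b ∈ T, a * b = b * a)
    {φ : (I → ℤ) →+ ZMod 2} {t : Y} (ht : SgnEl cs h T X φ t)
    {s : Finset (I → ℤ)} (hs : (s : Set (I → ℤ)) = Pos cs h) [DecidablePred fun x : I → ℤ => φ x = 0] :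
    Nat.card T * (∏ x ∈ s with φ x = 0, Nat.card (X x)) ^ 2 ≤ Nat.card ↥(Subgroup.centralizer {t}) := by
  classical
  have hmem : ∀ x, x ∈ s → IsRoot cs h x := fun x hx => by
    rw [← Finset.mem_coe, hs] at hx; exact hx.1
  have key : ∀ x, IsRoot cs h x → Nat.card ↥(X x ⊓ Subgroup.centralizer {t}) =
      if φ x = 0 then Nat.card (X x) else 1 := by
    intro x hx
    split_ifs with h0
    · have h1 : X x ⊓ Subgroup.centralizer {t} = X x := inf_eq_left.2 fun u hu =>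
        Subgroup.mem_centralizer_singleton_iff.2 (ht.fix x hx h0 u hu).symm
      rw [h1]
    · have h1 : X x ⊓ Subgroup.centralizer {t} = ⊥ := by
        rw [eq_bot_iff]
        rintro u ⟨hu, hc⟩
        rw [Subgroup.mem_bot]
        exact eq_one_of_inv Rd hp2 hx hu (ht.inv x hx h0 u hu) (Subgroup.mem_centralizer_singleton_iff.1 hc).symm
      rw [h1, Subgroup.card_bot]
  have hcard : ∀ x, IsRoot cs h x → Nat.card (X (-x)) = Nat.card (X x) := by
    rintro _ ⟨w, i, rfl⟩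
    obtain ⟨k, hk⟩ := exists_rp cs Rd.nsys (w * cs.simple i * w⁻¹)
    have h1 := Rd.conj_rp hk ((isRoot_sr cs h i).act w)
    have h2 : rep cs h (w * cs.simple i * w⁻¹) (rep cs h w (sr i)) = -rep cs h w (sr i) := by
      rw [← rep_mul_apply, inv_mul_cancel_right, rep_mul_apply, rep_simple_sr, map_neg]
    rw [h2] at h1
    rw [← h1, card_cj']
  have h1 := cent_cell Rd hT ht.mem hs
  have h2 : (∏ x ∈ s, Nat.card ↥(X x ⊓ Subgroup.centralizer {t})) = ∏ x ∈ s with φ x = 0, Nat.card (X x) := by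
    rw [Finset.prod_filter]
    exact Finset.prod_congr rfl fun x hx => key x (hmem x hx)
  have h3 : (∏ x ∈ s, Nat.card ↥(X (-x) ⊓ Subgroup.centralizer {t})) = ∏ x ∈ s with φ x = 0, Nat.card (X x) := by
    rw [Finset.prod_filter]
    refine Finset.prod_congr rfl fun x hx => ?_
    rw [key (-x) (hmem x hx).neg, hcard x (hmem x hx)]
    have h4 : φ (-x) = 0 ↔ φ x = 0 := by rw [map_neg, neg_eq_zero]
    by_cases h5 : φ x = 0
    · rw [if_pos h5, if_pos (h4.2 h5)]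
    · rw [if_neg h5, if_neg fun h6 => h5 (h4.1 h6)]
  rw [h2, h3] at h1
  calc Nat.card T * (∏ x ∈ s with φ x = 0, Nat.card (X x)) ^ 2
      = (∏ x ∈ s with φ x = 0, Nat.card (X x)) * Nat.card T * ∏ x ∈ s with φ x = 0, Nat.card (X x) := by ring
    _ ≤ _ := h1

end Cfsg.Agent.H203.IF.Cell
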