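import Cfsg.Agent.H557.LrTwE
import Cfsg.Agent.S1066

/-!
# S5719, `²E₆(q)`, `q` odd: the data of the root groups (helper203)

* `card_long`, `card_short` : the orders of the root groups;
* `com_mem`, `com_surj` : two roots of the same length whose sum is a long root;
* `order_le` : `|²E₆(q)| (q - 1)^6 ≤ |T| q^78`;
* `inv_mask` : every involution is conjugate to a sign element of the torus of mask `1` or `8`.
-/

set_option autoImplicit false
set_option linter.unusedSectionVars false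
set_option maxHeartbeats 400000

namespace Cfsg.Agent.H203.IF.TE6

open CoxeterSystem Cfsg.Agent.ChevalleyStructure.CoxeterGeom Cfsg.Agent.Tits.Roots Cfsg.Agent.Tits.Core
  Cfsg.Agent.Tits.RootComb Cfsg.Agent.Nodes.Comb Cfsg.Agent.Nodes.Reps Cfsg.Agent.Nodes.BNOf
  Cfsg.Agent.Nodes.RGDTwGen Cfsg.Agent.Nodes.RGDChev Cfsg.Agent.Nodes.RGDFold
  Cfsg.Agent.Nodes.RGDFoldSL Cfsg.Agent.Nodes.RGDTwE6 Cfsg.Agent.Nodes.RGDTwTab Cfsg.Agent.Nodes.RGDTwCoordE6
  Cfsg.Agent.Nodes.RGDTwCoord Cfsg.Agent.Nodes.RGDTwComE6 Cfsg.Agent.Nodes.RGDTwActE6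
  Cfsg.Agent.Nodes.RGDLib Cfsg.Agent.Nodes.Bruhat
open Cfsg.Lie Cfsg.Agent.ChevalleyStructure
open Cfsg.Agent.KFacts.TwESix.Comb (bf rts mem_rts bf_rep rho rho_root bf_rho pairing_eq)
open Cfsg.Agent.UGT.U2.FOne Cfsg.Agent.UGT.U2.FOne.TwESix
open Cfsg.Agent.H557.LrAbs Cfsg.Agent.H557.LrSgn Cfsg.Agent.H557.LrTor Cfsg.Agent.H557.LrOrb Cfsg.Agent.H557.LrIso
  Cfsg.Agent.H557.LrNF Cfsg.Agent.H557.LrTwE
open Cfsg.Agent.H557.LrChev (csz csz_apply csz_eq_zero_iff)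
open scoped commutatorElement MatrixGroups

theorem bf_eq (z : Fin 4 → ℤ) : bf z z = Qv z := by
  unfold bf Qv Q4
  ring

theorem lg_iff {z : Fin 4 → ℤ} : Lg z ↔ bf z z = 4 := by rw [bf_eq]; rfl

theorem st_iff {z : Fin 4 → ℤ} : St z ↔ bf z z = 2 := by rw [bf_eq]; rfl

/-- the structure constants are signs -/
def tabN : Prop := ∀ z ∈ rts, ∀ w ∈ rts, z + w ∈ rts → bf (z + w) (z + w) = 4 → bf z z = bf w w →
  N z w = 1 ∨ N z w = -1

/-- six of the roots -/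
def chunk (i : ℕ) : List (Fin 4 → ℤ) := (rts.drop (6 * i)).take 6

/-- the rows of the table -/
def tabR (z : Fin 4 → ℤ) : Prop := ∀ w ∈ rts, z + w ∈ rts → bf (z + w) (z + w) = 4 → bf z z = bf w w →
  N z w = 1 ∨ N z w = -1

theorem rts_eq : rts = chunk 0 ++ (chunk 1 ++ (chunk 2 ++ (chunk 3 ++ (chunk 4 ++ (chunk 5 ++ (chunk 6 ++ chunk 7)))))) :=
  rfl

set_option maxRecDepth 20000 in
theorem tab_0 : ∀ z ∈ chunk 0, tabR z := by
  unfold tabR
  decide +kernel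

set_option maxRecDepth 20000 in
theorem tab_1 : ∀ z ∈ chunk 1, tabR z := by
  unfold tabR
  decide +kernel

set_option maxRecDepth 20000 in
theorem tab_2 : ∀ z ∈ chunk 2, tabR z := by
  unfold tabR
  decide +kernel

set_option maxRecDepth 20000 in
theorem tab_3 : ∀ z ∈ chunk 3, tabR z := by
  unfold tabR
  decide +kernel

set_option maxRecDepth 20000 in
theorem tab_4 : ∀ z ∈ chunk 4, tabR z := by
  unfold tabR
  decide +kernel

set_option maxRecDepth 20000 in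
theorem tab_5 : ∀ z ∈ chunk 5, tabR z := by
  unfold tabR
  decide +kernel

set_option maxRecDepth 20000 in
theorem tab_6 : ∀ z ∈ chunk 6, tabR z := by
  unfold tabR
  decide +kernel

set_option maxRecDepth 20000 in
theorem tab_7 : ∀ z ∈ chunk 7, tabR z := by
  unfold tabR
  decide +kernel

theorem tabN_spec : tabN := by
  intro z hz
  rw [rts_eq] at hz
  simp only [List.mem_append] at hz
  have key : tabR z := by
    rcases hz with h | h | h | h | h | h | h | h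
    · exact tab_0 z h
    · exact tab_1 z h
    · exact tab_2 z h
    · exact tab_3 z h
    · exact tab_4 z h
    · exact tab_5 z h
    · exact tab_6 z h
    · exact tab_7 z h
  exact key

variable {K : Type} [Field K] [Fintype K] {q : ℕ} {φ : K →+* K} (hφ : ∀ x, φ x = x ^ q)
  (hqq : ∀ t : K, (t ^ q) ^ q = t) {W : Type*} [Group W] {cs : CoxeterSystem CoxeterMatrix.F₄ W}
  {z w : Fin 4 → ℤ}

include hφ hqq in
theorem card_long (hq : 2 ≤ q) (hK : Fintype.card K = q ^ 2) (hz : IsRoot cs isCartan z) (hl : bf z z = 4) :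
    Nat.card (X φ q z) = q := by
  refine Eq.trans ?_ (card_Fq hφ hq hK)
  refine (Nat.card_congr (Equiv.ofBijective (fun a : Fq φ => (⟨x φ q z (a : K), (mem_X hφ hqq hz _).2
    ⟨a, ok_long hz (lg_iff.2 hl) a.2, rfl⟩⟩ : X φ q z)) ⟨?_, ?_⟩)).symm
  · intro a b hab
    have h1 := congrArg Subtype.val hab
    exact Subtype.ext (x_inj hφ hqq hz (ok_long hz (lg_iff.2 hl) a.2) (ok_long hz (lg_iff.2 hl) b.2) h1)
  · rintro ⟨g, hg⟩
    obtain ⟨a, ha, rfl⟩ := (mem_X hφ hqq hz _).1 hg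
    exact ⟨⟨a, (ok_iff_long hz (lg_iff.2 hl)).1 ha⟩, rfl⟩

include hφ hqq in
theorem card_short (hK : Fintype.card K = q ^ 2) (hz : IsRoot cs isCartan z) (hs : bf z z = 2) :
    Nat.card (X φ q z) = q ^ 2 := by
  rw [← hK, ← Nat.card_eq_fintype_card]
  refine (Nat.card_congr (Equiv.ofBijective (fun a : K => (⟨x φ q z a, (mem_X hφ hqq hz _).2
    ⟨a, ok_short hφ hqq hz (st_iff.2 hs) a, rfl⟩⟩ : X φ q z)) ⟨?_, ?_⟩)).symm
  · intro a b hab
    exact x_inj hφ hqq hz (ok_short hφ hqq hz (st_iff.2 hs) a) (ok_short hφ hqq hz (st_iff.2 hs) b)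
      (congrArg Subtype.val hab)
  · rintro ⟨g, hg⟩
    obtain ⟨a, -, rfl⟩ := (mem_X hφ hqq hz _).1 hg
    exact ⟨a, rfl⟩

include hφ hqq in
/-- the commutator of two roots of the same length whose sum is a long root -/
theorem com_mem (hz : IsRoot cs isCartan z) (hw : IsRoot cs isCartan w) (hzw : IsRoot cs isCartan (z + w))
    (hl : bf (z + w) (z + w) = 4) (he : bf z z = bf w w) : ∀ u ∈ X φ q z, ∀ v ∈ X φ q w,
    ⁅u, v⁆ ∈ X φ q (z + w) := by
  intro u hu v hv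
  obtain ⟨a, ha, rfl⟩ := (mem_X hφ hqq hz _).1 hu
  obtain ⟨b, hb, rfl⟩ := (mem_X hφ hqq hw _).1 hv
  rcases Cfsg.Agent.KFacts.TwESix.Comb.norm cs hz with h4 | h2
  · have ha' := (ok_iff_long hz (lg_iff.2 h4)).1 ha
    have hb' := (ok_iff_long hw (lg_iff.2 (he ▸ h4))).1 hb
    obtain ⟨-, h5⟩ := comm_long hφ hqq hz hw hzw (lg_iff.2 h4) (lg_iff.2 (he ▸ h4)) ha' hb'
    rw [h5]
    exact x_mem hφ hqq hzw (ok_long hzw (lg_iff.2 hl) (by rw [map_mul, map_mul, map_intCast, ha', hb']))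
  · rw [comm_trace hφ hqq hz hw hzw (st_iff.2 h2) (st_iff.2 (he ▸ h2)) (lg_iff.2 hl) a b]
    exact x_mem hφ hqq hzw (ok_long hzw (lg_iff.2 hl) (by
      rw [map_mul, map_add, map_mul, map_mul, map_intCast, phi_phi hφ hqq, phi_phi hφ hqq, add_comm]))

include hφ hqq in
/-- ... covers the root group of the sum -/
theorem com_surj (h2K : (2 : K) ≠ 0) (hz : IsRoot cs isCartan z) (hw : IsRoot cs isCartan w)
    (hzw : IsRoot cs isCartan (z + w)) (hl : bf (z + w) (z + w) = 4) (he : bf z z = bf w w) :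
    ∀ u ∈ X φ q z, u ≠ 1 → ∀ r ∈ X φ q (z + w), ∃ v ∈ X φ q w, ⁅u, v⁆ = r := by
  intro u hu hu1 r hr
  obtain ⟨a, ha, rfl⟩ := (mem_X hφ hqq hz _).1 hu
  obtain ⟨c, hc, rfl⟩ := (mem_X hφ hqq hzw _).1 hr
  have ha0 : a ≠ 0 := by
    rintro rfl
    exact hu1 (x_zero hφ hqq hz)
  have hcφ := (ok_iff_long hzw (lg_iff.2 hl)).1 hc
  have hN : ((N z w : ℤ) : K) * ((N z w : ℤ) : K) = 1 := by
    rcases tabN_spec z ((mem_rts cs).1 hz) w ((mem_rts cs).1 hw) ((mem_rts cs).1 hzw) hl he with h | h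
    · rw [h]; push_cast; ring
    · rw [h]; push_cast; ring
  rcases Cfsg.Agent.KFacts.TwESix.Comb.norm cs hz with h4 | h2
  · have ha' := (ok_iff_long hz (lg_iff.2 h4)).1 ha
    have hbφ : φ (((N z w : ℤ) : K) * (a⁻¹ * c)) = ((N z w : ℤ) : K) * (a⁻¹ * c) := by
      rw [map_mul, map_mul, map_intCast, map_inv₀, ha', hcφ]
    refine ⟨x φ q w (((N z w : ℤ) : K) * (a⁻¹ * c)), x_mem hφ hqq hw (ok_long hw (lg_iff.2 (he ▸ h4)) hbφ), ?_⟩
    obtain ⟨-, h5⟩ := comm_long hφ hqq hz hw hzw (lg_iff.2 h4) (lg_iff.2 (he ▸ h4)) ha' hbφ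
    rw [h5]
    congr 1
    calc ((N z w : ℤ) : K) * (a * (((N z w : ℤ) : K) * (a⁻¹ * c)))
        = (((N z w : ℤ) : K) * ((N z w : ℤ) : K)) * (a * a⁻¹) * c := by ring
      _ = c := by rw [hN, mul_inv_cancel₀ ha0, one_mul, one_mul]
  · have hφa : φ a ≠ 0 := fun h => ha0 (by rw [← phi_phi hφ hqq a, h, map_zero])
    refine ⟨x φ q w (((N z w : ℤ) : K) * ((2 : K)⁻¹ * ((φ a)⁻¹ * c))), x_mem hφ hqq hw
      (ok_short hφ hqq hw (st_iff.2 (he ▸ h2)) _), ?_⟩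
    rw [comm_trace hφ hqq hz hw hzw (st_iff.2 h2) (st_iff.2 (he ▸ h2)) (lg_iff.2 hl)]
    congr 1
    have e1 : φ (((N z w : ℤ) : K) * ((2 : K)⁻¹ * ((φ a)⁻¹ * c))) = ((N z w : ℤ) : K) * ((2 : K)⁻¹ * (a⁻¹ * c)) := by
      rw [map_mul, map_mul, map_mul, map_intCast, map_inv₀, map_inv₀, phi_phi hφ hqq, hcφ, map_ofNat]
    rw [e1]
    calc ((N z w : ℤ) : K) * (a * (((N z w : ℤ) : K) * ((2 : K)⁻¹ * (a⁻¹ * c))) +
          φ a * (((N z w : ℤ) : K) * ((2 : K)⁻¹ * ((φ a)⁻¹ * c))))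
        = (((N z w : ℤ) : K) * ((N z w : ℤ) : K)) * ((2 : K)⁻¹ * c * (a * a⁻¹) + (2 : K)⁻¹ * c * (φ a * (φ a)⁻¹)) := by
          ring
      _ = 2 * (2 : K)⁻¹ * c := by rw [hN, mul_inv_cancel₀ ha0, mul_inv_cancel₀ hφa]; ring
      _ = c := by rw [mul_inv_cancel₀ h2K, one_mul]

/-- the order of the torus -/
theorem card_T (hqp : IsPrimePow q) (hK : Fintype.card K = q ^ 2) :
    Nat.gcd 3 (q + 1) * Nat.card (T K q) = (q - 1) ^ 4 * (q + 1) ^ 2 := by
  have h1 := Cfsg.Agent.S1102.result hqp hK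
  have h2 : Nat.card (T K q) = Nat.card ↥(Cfsg.Lie.chevE6.diagonalSubgroup K ⊓ Cfsg.Lie.twistedE6 K q) :=
    Nat.card_congr (Subgroup.subgroupOfEquivOfLe inf_le_right).toEquiv
  rw [h2]
  exact h1

theorem arith {q : ℕ} (h2 : 2 ≤ q) :
    (q ^ 2 - 1) * (q ^ 5 + 1) * (q ^ 6 - 1) * (q ^ 8 - 1) * (q ^ 9 + 1) * (q ^ 12 - 1) * (q - 1) ^ 6 ≤
      (q - 1) ^ 4 * (q + 1) ^ 2 * q ^ 42 := by
  have e1 : (q ^ 5 + 1) * (q - 1) ≤ q ^ 6 := by
    obtain ⟨m, rfl⟩ : ∃ m, q = m + 1 := ⟨q - 1, by omega⟩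
    rw [Nat.add_sub_cancel, pow_succ (m + 1) 5]
    have h1 : m ≤ (m + 1) ^ 5 := (Nat.le_succ m).trans (Nat.le_self_pow (by norm_num) _)
    linarith [h1, Nat.zero_le m]
  have e2 : (q ^ 9 + 1) * (q - 1) ≤ q ^ 10 := by
    obtain ⟨m, rfl⟩ : ∃ m, q = m + 1 := ⟨q - 1, by omega⟩
    rw [Nat.add_sub_cancel, pow_succ (m + 1) 9]
    have h1 : m ≤ (m + 1) ^ 9 := (Nat.le_succ m).trans (Nat.le_self_pow (by norm_num) _)
    linarith [h1, Nat.zero_le m]
  have e3 : q ^ 2 ≤ (q + 1) ^ 2 := Nat.pow_le_pow_left (by omega) 2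
  calc (q ^ 2 - 1) * (q ^ 5 + 1) * (q ^ 6 - 1) * (q ^ 8 - 1) * (q ^ 9 + 1) * (q ^ 12 - 1) * (q - 1) ^ 6
      = (q - 1) ^ 4 * ((q ^ 2 - 1) * (q ^ 6 - 1) * (q ^ 8 - 1) * (q ^ 12 - 1) * (((q ^ 5 + 1) * (q - 1)) *
          ((q ^ 9 + 1) * (q - 1)))) := by ring
    _ ≤ (q - 1) ^ 4 * (q ^ 2 * q ^ 6 * q ^ 8 * q ^ 12 * (q ^ 6 * q ^ 10)) := by
        gcongr <;> exact Nat.sub_le _ _
    _ = (q - 1) ^ 4 * q ^ 2 * q ^ 42 := by ring
    _ ≤ _ := by gcongr

/-- **the order** -/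
theorem order_le (hqp : IsPrimePow q) (hK : Fintype.card K = q ^ 2) :
    Nat.card ↥(twistedE6 K q) * (q - 1) ^ 6 ≤ Nat.card (T K q) * q ^ 78 := by
  have h1 := Cfsg.Agent.S1066.result hqp hK
  have h2 := card_T hqp hK
  have hd : 0 < Nat.gcd 3 (q + 1) := Nat.gcd_pos_of_pos_left _ (by norm_num)
  refine Nat.le_of_mul_le_mul_left (c := Nat.gcd 3 (q + 1)) ?_ hd
  rw [← mul_assoc, h1, ← mul_assoc, h2]
  have h3 := Nat.mul_le_mul_left (q ^ 36) (arith hqp.two_le)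
  calc _ = q ^ 36 * ((q ^ 2 - 1) * (q ^ 5 + 1) * (q ^ 6 - 1) * (q ^ 8 - 1) * (q ^ 9 + 1) * (q ^ 12 - 1) *
        (q - 1) ^ 6) := by ring
    _ ≤ q ^ 36 * ((q - 1) ^ 4 * (q + 1) ^ 2 * q ^ 42) := h3
    _ = _ := by ring

/-! ### The classes of involutions -/

include hφ hqq in
/-- **Every involution is conjugate to a sign element of mask `1` or `8`.** -/
theorem inv_mask (hqp : IsPrimePow q) (ho : Odd q) (hK : Fintype.card K = q ^ 2) (cs : CoxeterSystem CoxeterMatrix.F₄ W)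
    {t : ↥(twistedE6 K q)} (htt : t * t = 1) (ht1 : t ≠ 1) : ∃ (k s : ↥(twistedE6 K q)) (n : ℕ), (n = 1 ∨ n = 8) ∧
      SgnEl cs isCartan (T K q) (X φ q) (bits 4 n) s ∧ t = k * s * k⁻¹ := by
  obtain ⟨p, hp⟩ := CharP.exists K
  have hprime : p.Prime := CharP.char_prime_of_ne_zero K (CharP.char_ne_zero_of_finite K p)
  have : Fact p.Prime := ⟨hprime⟩
  have hF : Odd (Fintype.card K) := by
    rw [hK]
    exact ho.pow
  have hp2 : p ≠ 2 := by
    rintro rfl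
    obtain ⟨n, -, hn⟩ := FiniteField.card K 2
    rw [hn] at hF
    exact absurd hF (Nat.not_odd_iff_even.2 (even_two.pow_of_ne_zero n.ne_zero))
  have hpo : Odd p := hprime.odd_of_ne_two hp2
  have hq2 : 2 ≤ q := hqp.two_le
  have h2K : (2 : K) ≠ 0 := (odd_card (F := K) hpo).2
  have hS := Cfsg.Agent.S1070.result hqp hK
  have hs : IsSimpleGroup ↥(Lie.twistedE6 K q) := hS.1
  have hZ : Subgroup.center ↥(Lie.twistedE6 K q) = ⊥ := by
    rcases (inferInstance : (Subgroup.center ↥(Lie.twistedE6 K q)).Normal).eq_bot_or_eq_top with h1 | h1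
    · exact h1
    · exfalso
      apply hS.2
      exact ⟨⟨fun a b => by
        have h2 : a ∈ Subgroup.center ↥(Lie.twistedE6 K q) := by rw [h1]; exact Subgroup.mem_top a
        exact (Subgroup.mem_center_iff.1 h2 b).symm⟩⟩
  have hW : Finite W := Cfsg.Agent.KFacts.TwESix.Comb.finiteW cs
  have R := rgd cs hφ hqq p
  have hG1 := G1_eq_top (cs := cs) hφ hqq
  obtain ⟨k, φ', σ, J, g, N⟩ := exists_nf_inner hp2 R hG1 hZ htt ht1
  have hJ := J_empty hφ hqq p hq2 hK N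
  have hσ := sigma_id hφ hqq p hq2 hK N
  have hw : wJ cs (∅ : Set (Fin 4)) = 1 := by
    have F : Cfsg.Agent.Tits.OppRes.Cox cs := inferInstance
    have h := F.wJ_mem (∅ : Set (Fin 4))
    unfold WJ at h
    rwa [Set.image_empty, Subgroup.closure_empty, Subgroup.mem_bot] at h
  have hT : k⁻¹ * t * k ∈ T K q := by
    refine mem_T_of R (GG_top φ hφ hqq) fun c hc => ?_
    have h1 := N.nx.xX_id hσ hc
    rw [hJ, hw, map_one, Module.End.one_apply] at h1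
    exact h1
  have htt' : k⁻¹ * t * k * (k⁻¹ * t * k) = 1 := by
    have : k⁻¹ * t * k * (k⁻¹ * t * k) = k⁻¹ * (t * t) * k := by group
    rw [this, htt, mul_one, inv_mul_cancel]
  have ht1' : k⁻¹ * t * k ≠ 1 := by
    intro h
    apply ht1
    calc t = k * (k⁻¹ * t * k) * k⁻¹ := by group
      _ = 1 := by rw [h]; group
  obtain ⟨n, hn, hs⟩ := exists_sgn6 (cs := cs) hφ hqq p h2K hZ hT htt'
  -- the orbits
  let P : ℕ → Prop := fun n => ∀ t : ↥(twistedE6 K q), t ≠ 1 → SgnEl cs isCartan (T K q) (X φ q) (bits 4 n) t →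
    ∃ (k s : ↥(twistedE6 K q)) (n : ℕ), (n = 1 ∨ n = 8) ∧ SgnEl cs isCartan (T K q) (X φ q) (bits 4 n) s ∧
      t = k * s * k⁻¹
  have hP : P n := by
    refine orbit_all (l := 4) (rm := rm) (P := P) (fun j n hP t ht1 ht => ?_) okLo (fun m hm => ?_) hn
    · have h2 := ht.conj R (rp_simple cs R.nsys j)
      rw [bits_step cs isCartan okR] at h2
      obtain ⟨k, s, n, h3, h4, h5⟩ := hP _ (by
        intro h
        apply ht1
        calc t = (nn hφ j)⁻¹ * (nn hφ j * t * (nn hφ j)⁻¹) * nn hφ j := by group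
          _ = 1 := by rw [h]; group) h2
      refine ⟨(nn hφ j)⁻¹ * k, s, n, h3, h4, ?_⟩
      calc t = (nn hφ j)⁻¹ * (nn hφ j * t * (nn hφ j)⁻¹) * nn hφ j := by group
        _ = _ := by rw [h5]; group
    · have hc : ∀ m : ℕ, (259 : ℕ).testBit m = true → m = 0 ∨ m = 1 ∨ m = 8 := by
        intro m hm
        by_cases h : m < 9
        · revert hm
          revert m
          decide +kernel
        · exfalso
          rw [Nat.testBit_lt_two_pow (lt_of_lt_of_le (by norm_num : (259 : ℕ) < 2 ^ 9)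
            (Nat.pow_le_pow_right (by norm_num) (not_lt.1 h)))] at hm
          exact absurd hm (by decide)
      intro t ht1 ht
      rcases hc m hm with rfl | rfl | rfl
      · exfalso
        apply ht1
        refine SgnEl.unique hG1 hZ ht ⟨one_mem _, fun a _ _ u _ => by rw [one_mul, mul_one], fun a _ h2 => ?_⟩
        exact absurd (by rw [bits_zero]; rfl) h2
      · exact ⟨1, t, 1, Or.inl rfl, ht, by group⟩
      · exact ⟨1, t, 8, Or.inr rfl, ht, by group⟩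
  obtain ⟨k', s, m, h3, h4, h5⟩ := hP _ ht1' hs
  refine ⟨k * k', s, m, h3, h4, ?_⟩
  calc t = k * (k⁻¹ * t * k) * k⁻¹ := by group
    _ = _ := by rw [h5]; group

end Cfsg.Agent.H203.IF.TE6
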