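import Cfsg.Agent.H203.IF.TE6
import Cfsg.Agent.H203.IF.Cell

/-!
# S5719, `²E₆(q)`, `q` odd: the indices of the centralizers of the sign elements (helper203)

* `idx_one` : mask `1`: `|G : C(s)| (q - 1)^6 ≤ q^46`;
* `idx_eight` : masks `4`, `8`, `12`: `|G : C(s)| (q - 1)^6 ≤ q^38`.
-/

set_option autoImplicit false
set_option linter.unusedSectionVars false
set_option maxHeartbeats 400000

namespace Cfsg.Agent.H203.IF.TE6

open CoxeterSystem Cfsg.Agent.ChevalleyStructure.CoxeterGeom Cfsg.Agent.Tits.Roots Cfsg.Agent.Tits.Core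
  Cfsg.Agent.Tits.RootComb Cfsg.Agent.Nodes.Comb Cfsg.Agent.Nodes.Reps Cfsg.Agent.Nodes.BNOf
  Cfsg.Agent.Nodes.BNOf.RGD
  Cfsg.Agent.Nodes.RGDTwGen Cfsg.Agent.Nodes.RGDChev Cfsg.Agent.Nodes.RGDFold
  Cfsg.Agent.Nodes.RGDFoldSL Cfsg.Agent.Nodes.RGDTwE6 Cfsg.Agent.Nodes.RGDTwTab Cfsg.Agent.Nodes.RGDTwCoordE6
  Cfsg.Agent.Nodes.RGDTwCoord Cfsg.Agent.Nodes.RGDTwComE6 Cfsg.Agent.Nodes.RGDTwActE6
  Cfsg.Agent.Nodes.RGDLib Cfsg.Agent.Nodes.Bruhat
open Cfsg.Lie Cfsg.Agent.ChevalleyStructure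
open Cfsg.Agent.KFacts.TwESix.Comb (bf rts mem_rts bf_rep rho rho_root bf_rho pairing_eq)
open Cfsg.Agent.UGT.U2.FOne Cfsg.Agent.UGT.U2.FOne.TwESix
open Cfsg.Agent.H557.LrAbs Cfsg.Agent.H557.LrSgn Cfsg.Agent.H557.LrTor Cfsg.Agent.H557.LrOrb Cfsg.Agent.H557.LrIso
  Cfsg.Agent.H557.LrNF Cfsg.Agent.H557.LrTwE
open scoped commutatorElement MatrixGroups

/-- the positive roots -/
def posL : List (Fin 4 → ℤ) := rts.filter fun x => decide (∀ i, 0 ≤ x i)

/-- the parity of a mask -/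
def ev (n : ℕ) (c : Fin 4 → ℤ) : Prop := (∑ j : Fin 4, if n.testBit j then c j else 0) % 2 = 0

instance (n : ℕ) : DecidablePred (ev n) := fun _ => inferInstanceAs (Decidable (_ = _))

theorem bits_iff (n : ℕ) (c : Fin 4 → ℤ) : bits 4 n c = 0 ↔ ev n c := by
  have h1 : bits 4 n c = ((∑ j : Fin 4, if n.testBit j then c j else 0 : ℤ) : ZMod 2) := by
    show (∑ j : Fin 4, if n.testBit j then ((c j : ℤ) : ZMod 2) else 0) = _
    rw [Int.cast_sum]
    refine Finset.sum_congr rfl fun j _ => ?_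
    split_ifs
    · rfl
    · rw [Int.cast_zero]
  rw [h1, ZMod.intCast_zmod_eq_zero_iff_dvd]
  unfold ev
  omega

/-- the exponent of the order of a root group -/
def ex (x : Fin 4 → ℤ) : ℕ := if bf x x = 4 then 1 else 2

set_option maxRecDepth 20000 in
theorem tab_sum : (posL.filter fun x => decide (ev 1 x)).map ex = [1, 1, 1, 1, 2, 2, 2, 2, 2, 2] ∧
    ∀ n ∈ [4, 8, 12], ((posL.filter fun x => decide (ev n x)).map ex).sum = 20 := by decide +kernel

theorem posL_nodup : posL.Nodup := by decide +kernel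

variable {K : Type} [Field K] [Fintype K] {q : ℕ} {φ : K →+* K} (hφ : ∀ x, φ x = x ^ q)
  (hqq : ∀ t : K, (t ^ q) ^ q = t) {W : Type*} [Group W] {cs : CoxeterSystem CoxeterMatrix.F₄ W}
  {z w : Fin 4 → ℤ}

theorem pos_eq (cs : CoxeterSystem CoxeterMatrix.F₄ W) : ((posL.toFinset : Finset (Fin 4 → ℤ)) : Set (Fin 4 → ℤ)) =
    Pos cs isCartan := by
  ext x
  rw [Finset.mem_coe, List.mem_toFinset]
  unfold posL
  rw [List.mem_filter, decide_eq_true_eq]
  constructor
  · rintro ⟨h1, h2⟩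
    exact ⟨(mem_rts cs).2 h1, h2⟩
  · rintro ⟨h1, h2⟩
    exact ⟨(mem_rts cs).1 h1, h2⟩

include hφ hqq in
theorem card_X (hq : 2 ≤ q) (hK : Fintype.card K = q ^ 2) (hz : IsRoot cs isCartan z) :
    Nat.card (X φ q z) = q ^ ex z := by
  unfold ex
  rcases Cfsg.Agent.KFacts.TwESix.Comb.norm cs hz with h | h
  · rw [if_pos h, pow_one, card_long hφ hqq hq hK hz h]
  · rw [if_neg (by rw [h]; decide), card_short hφ hqq hK hz h]

include hφ hqq in
theorem prod_eq (hq : 2 ≤ q) (hK : Fintype.card K = q ^ 2) (cs : CoxeterSystem CoxeterMatrix.F₄ W) (n : ℕ)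
    [DecidablePred fun x : Fin 4 → ℤ => bits 4 n x = 0] :
    (∏ x ∈ posL.toFinset with bits 4 n x = 0, Nat.card (X φ q x)) =
      q ^ ((posL.filter fun x => decide (ev n x)).map ex).sum := by
  have h1 : (posL.toFinset.filter fun x => bits 4 n x = 0) = (posL.filter fun x => decide (ev n x)).toFinset := by
    ext x
    rw [Finset.mem_filter, List.mem_toFinset, List.mem_toFinset, List.mem_filter, decide_eq_true_eq, bits_iff]
  rw [h1, List.prod_toFinset _ (posL_nodup.filter _)]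
  have h2 : ∀ l : List (Fin 4 → ℤ), (∀ x ∈ l, x ∈ rts) →
      (l.map fun x => Nat.card (X φ q x)).prod = q ^ (l.map ex).sum := by
    intro l
    induction l with
    | nil => intro _; simp
    | cons a l ih =>
      intro hl
      rw [List.map_cons, List.prod_cons, List.map_cons, List.sum_cons, pow_add,
        ih fun x hx => hl x (List.mem_cons_of_mem _ hx),
        card_X hφ hqq hq hK ((mem_rts cs).2 (hl a List.mem_cons_self))]
  apply h2
  intro x hx
  have h3 := (List.mem_filter.1 hx).1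
  unfold posL at h3
  exact (List.mem_filter.1 h3).1

include hφ hqq in
theorem idx_of (hqp : IsPrimePow q) (ho : Odd q) (hK : Fintype.card K = q ^ 2) {n m : ℕ}
    (hm : ((posL.filter fun x => decide (ev n x)).map ex).sum = m) (hm2 : 2 * m ≤ 78)
    {s : ↥(twistedE6 K q)} (hs : SgnEl cs isCartan (T K q) (X φ q) (bits 4 n) s) :
    (Subgroup.centralizer {s}).index * (q - 1) ^ 6 ≤ q ^ (78 - 2 * m) := by
  classical
  obtain ⟨p, hp⟩ := CharP.exists K
  have hprime : p.Prime := CharP.char_prime_of_ne_zero K (CharP.char_ne_zero_of_finite K p)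
  have : Fact p.Prime := ⟨hprime⟩
  have hp2 : p ≠ 2 := by
    rintro rfl
    have hF : Odd (Fintype.card K) := by
      rw [hK]
      exact ho.pow
    obtain ⟨n, -, hn⟩ := FiniteField.card K 2
    rw [hn] at hF
    exact absurd hF (Nat.not_odd_iff_even.2 (even_two.pow_of_ne_zero n.ne_zero))
  have hpo : Odd p := hprime.odd_of_ne_two hp2
  have hW : Finite W := Cfsg.Agent.KFacts.TwESix.Comb.finiteW cs
  have h1 := Cell.sgn_cell (rgd cs hφ hqq p) hpo (fun a ha b hb => comm_T ha hb) hs (pos_eq cs)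
  rw [prod_eq hφ hqq hqp.two_le hK cs n, hm] at h1
  have h2 := order_le hqp hK
  have h3 := (Subgroup.centralizer ({s} : Set ↥(twistedE6 K q))).card_mul_index
  have hq0 : 0 < q := hqp.pos
  have hT0 : 0 < Nat.card (T K q) := Nat.card_pos
  have hpos : 0 < Nat.card (T K q) * (q ^ m) ^ 2 := Nat.mul_pos hT0 (by positivity)
  refine Nat.le_of_mul_le_mul_left (c := Nat.card (T K q) * (q ^ m) ^ 2) ?_ hpos
  calc Nat.card (T K q) * (q ^ m) ^ 2 * ((Subgroup.centralizer {s}).index * (q - 1) ^ 6)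
      ≤ Nat.card ↥(Subgroup.centralizer ({s} : Set ↥(twistedE6 K q))) *
          ((Subgroup.centralizer {s}).index * (q - 1) ^ 6) := Nat.mul_le_mul_right _ h1
    _ = Nat.card ↥(twistedE6 K q) * (q - 1) ^ 6 := by rw [← mul_assoc, h3]
    _ ≤ Nat.card (T K q) * q ^ 78 := h2
    _ = Nat.card (T K q) * (q ^ m) ^ 2 * q ^ (78 - 2 * m) := by
        rw [mul_assoc, ← pow_mul, ← pow_add]
        congr 2
        omega

include hφ hqq in
/-- **mask `1`** -/
theorem idx_one (hqp : IsPrimePow q) (ho : Odd q) (hK : Fintype.card K = q ^ 2) {s : ↥(twistedE6 K q)}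
    (hs : SgnEl cs isCartan (T K q) (X φ q) (bits 4 1) s) :
    (Subgroup.centralizer {s}).index * (q - 1) ^ 6 ≤ q ^ 46 :=
  idx_of hφ hqq hqp ho hK (m := 16) (by rw [tab_sum.1]; rfl) (by norm_num) hs

include hφ hqq in
/-- **masks `4`, `8`, `12`** -/
theorem idx_eight (hqp : IsPrimePow q) (ho : Odd q) (hK : Fintype.card K = q ^ 2) {n : ℕ} (hn : n ∈ [4, 8, 12])
    {s : ↥(twistedE6 K q)} (hs : SgnEl cs isCartan (T K q) (X φ q) (bits 4 n) s) :
    (Subgroup.centralizer {s}).index * (q - 1) ^ 6 ≤ q ^ 38 :=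
  idx_of hφ hqq hqp ho hK (m := 20) (tab_sum.2 n hn) (by norm_num) hs

end Cfsg.Agent.H203.IF.TE6
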