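import Cfsg.Agent.H203.IF.TE6
import Cfsg.Agent.H17.IFSp.LR

/-!
# S5719, `²E₆(q)`, `q` odd: opposite long root elements (helper203)

`sl` : for a long root `b` there is an involution `ζ` acting as `(-1)^⟨z, b^∨⟩` on `X z`, contained in `⟨u, v⟩` for all
`1 ≠ u ∈ X b`, `1 ≠ v ∈ X (-b)`.
-/

set_option autoImplicit false
set_option linter.unusedSectionVars false
set_option maxHeartbeats 400000

namespace Cfsg.Agent.H203.IF.TE6

open CoxeterSystem Cfsg.Agent.ChevalleyStructure.CoxeterGeom Cfsg.Agent.Tits.Roots Cfsg.Agent.Tits.Core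
  Cfsg.Agent.Tits.RootComb Cfsg.Agent.Nodes.Comb Cfsg.Agent.Nodes.Reps Cfsg.Agent.Nodes.BNOf
  Cfsg.Agent.Nodes.RGDTwGen Cfsg.Agent.Nodes.RGDChev Cfsg.Agent.Nodes.RGDFold
  Cfsg.Agent.Nodes.RGDFoldSL Cfsg.Agent.Nodes.RGDTwE6 Cfsg.Agent.Nodes.RGDTwTab Cfsg.Agent.Nodes.RGDTwCoordE6
  Cfsg.Agent.Nodes.RGDTwCoord Cfsg.Agent.Nodes.RGDTwComE6 Cfsg.Agent.Nodes.RGDTwActE6
  Cfsg.Agent.Nodes.RGDLib Cfsg.Agent.Nodes.Bruhat
open Cfsg.Lie Cfsg.Agent.ChevalleyStructure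
open Cfsg.Agent.ChevalleyStructure.SL2Hom (up lo)
open Cfsg.Agent.KFacts.TwESix.Comb (bf rts mem_rts bf_rep rho rho_root bf_rho pairing_eq)
open Cfsg.Agent.UGT.U2.FOne Cfsg.Agent.UGT.U2.FOne.TwESix
open scoped commutatorElement MatrixGroups

variable {K : Type} [Field K] [Fintype K] {q : ℕ} {φ : K →+* K} (hφ : ∀ x, φ x = x ^ q)
  (hqq : ∀ t : K, (t ^ q) ^ q = t) {W : Type*} [Group W] {cs : CoxeterSystem CoxeterMatrix.F₄ W}
  {z w : Fin 4 → ℤ}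

/-- `-1 ∈ ⟨up a, lo b⟩` -/
theorem neg_one_mem {F : Type*} [Field F] [Finite F] (h2 : (2 : F) ≠ 0) {a b : F} (ha : a ≠ 0) (hb : b ≠ 0) :
    (-1 : SL(2, F)) ∈ Subgroup.closure {up a, lo b} := by
  refine Cfsg.Agent.H17.IFSp.lr_sl2 h2 ha hb _ (fun g hg => ?_) (fun g hg => ?_)
  · have : g = lo b := Subtype.ext hg
    rw [this]
    exact Subgroup.subset_closure (Or.inr rfl)
  · have : g = up a := Subtype.ext hg
    rw [this]
    exact Subgroup.subset_closure (Or.inl rfl)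

include hφ hqq in
/-- **Opposite long root elements.** -/
theorem sl (p : ℕ) [Fact p.Prime] [CharP K p] (h2K : (2 : K) ≠ 0) {b : Fin 4 → ℤ}
    (hb : IsRoot cs isCartan b) (hl : bf b b = 4) :
    ∃ ζ : ↥(twistedE6 K q), Inv cs φ q b ζ ∧ ∀ u ∈ X φ q b, ∀ v ∈ X φ q (-b), u ≠ 1 → v ≠ 1 →
      ζ ∈ Subgroup.closure {u, v} := by
  obtain ⟨w, rfl⟩ := Cfsg.Agent.KFacts.TwESix.Comb.exists_rep_long cs hb hl
  obtain ⟨k, hk⟩ := exists_rp cs (rgd cs hφ hqq p).nsys w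
  refine ⟨k * zn hφ hqq 0 * k⁻¹, (inv_zn (cs := cs) hφ hqq h2K).rp hφ hqq p hk, ?_⟩
  intro u hu v hv hu1 hv1
  rw [← (rgd cs hφ hqq p).conj_rp hk (isRoot_sr cs isCartan 0)] at hu
  rw [← map_neg, ← (rgd cs hφ hqq p).conj_rp hk (isRoot_sr cs isCartan 0).neg] at hv
  obtain ⟨u', hu', rfl⟩ := hu
  obtain ⟨v', hv', rfl⟩ := hv
  obtain ⟨a, rfl⟩ := (mem_X_sr hφ hqq 0).1 hu'
  obtain ⟨c, rfl⟩ := (mem_X_neg hφ hqq 0).1 hv'
  have ha : a ≠ 0 := by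
    rintro rfl
    apply hu1
    rw [SLInj.up_zero, map_one, map_one]
  have hc : c ≠ 0 := by
    rintro rfl
    apply hv1
    have : (lo (0 : Fx φ ((Cfsg.Agent.Nodes.RGDTwNode.E6.rest 0).length + 1)) : SL(2, _)) = 1 := by
      apply Subtype.ext
      ext i j
      fin_cases i <;> fin_cases j <;> simp [lo]
    rw [this, map_one, map_one]
  have h2F : (2 : Fx φ ((Cfsg.Agent.Nodes.RGDTwNode.E6.rest 0).length + 1)) ≠ 0 := fun h0 => h2K (by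
    have h1 : ((2 : Fx φ ((Cfsg.Agent.Nodes.RGDTwNode.E6.rest 0).length + 1)) : K) = 0 := by rw [h0]; rfl
    exact h1)
  have h1 := neg_one_mem h2F ha hc
  have h2 : ((MulAut.conj k).toMonoidHom.comp (P hφ hqq 0)) (-1) ∈
      (Subgroup.closure {up a, lo c}).map ((MulAut.conj k).toMonoidHom.comp (P hφ hqq 0)) :=
    Subgroup.mem_map_of_mem _ h1
  rw [MonoidHom.map_closure, Set.image_pair] at h2
  exact h2

end Cfsg.Agent.H203.IF.TE6
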